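import Cfsg.Agent.H232.KW.E8
import Cfsg.Agent.H232.KW.Num
import Cfsg.Agent.S1064

/-!
# The row `E₇(q)` of S4243
-/

set_option autoImplicit false
set_option linter.unusedSectionVars false

open Subgroup

namespace Cfsg.Agent.H232.KW

open Cfsg.Agent.H146.KW Cfsg.Agent.H622.KW Cfsg.Agent.H416.Arith

universe u v

section Arith

/-- the `p'`-part of `a` -/
theorem exists_part {a p : ℕ} (hp : p.Prime) (ha : a ≠ 0) (h : ¬ p ^ 2 ∣ a) :
    ∃ n, n ∣ a ∧ a ≤ p * n ∧ ∀ t, t.Prime → t ∣ n → t ∣ a ∧ t ≠ p := by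
  refine ⟨a / tp p a, ?_, ?_, ?_⟩
  · exact Nat.div_dvd_of_dvd (tp_dvd p a)
  · have h1 : tp p a ≤ p := by
      have := tp_le_of_not_dvd (b := 1) hp ha h
      rwa [pow_one] at this
    calc a = tp p a * (a / tp p a) := (Nat.mul_div_cancel' (tp_dvd p a)).symm
      _ ≤ _ := Nat.mul_le_mul_right _ h1
  · intro t ht htn
    refine ⟨htn.trans (Nat.div_dvd_of_dvd (tp_dvd p a)), ?_⟩
    rintro rfl
    exact Nat.not_dvd_ordCompl hp ha htn

/-- the four torus factors -/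
structure Tori (q a7 a9 a14 a18 : ℕ) : Prop where
  h7 : (a7 : ℤ) = 1 + (q : ℤ) + (q : ℤ) ^ 2 + (q : ℤ) ^ 3 + (q : ℤ) ^ 4 + (q : ℤ) ^ 5 + (q : ℤ) ^ 6
  h14 : (a14 : ℤ) = 1 - (q : ℤ) + (q : ℤ) ^ 2 - (q : ℤ) ^ 3 + (q : ℤ) ^ 4 - (q : ℤ) ^ 5 + (q : ℤ) ^ 6
  h9 : (a9 : ℤ) = 1 + (q : ℤ) ^ 3 + (q : ℤ) ^ 6
  h18 : (a18 : ℤ) = 1 - (q : ℤ) ^ 3 + (q : ℤ) ^ 6

theorem exists_tori {q : ℕ} (hq : 2 ≤ q) : ∃ a7 a9 a14 a18, Tori q a7 a9 a14 a18 := by
  have hpos : ∀ z : ℤ, 0 ≤ z → ∃ a : ℕ, (a : ℤ) = z := fun z hz => ⟨z.toNat, Int.toNat_of_nonneg hz⟩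
  obtain ⟨x, rfl⟩ := Nat.exists_eq_add_of_le' hq
  obtain ⟨a7, h7⟩ := hpos (1 + ((x + 2 : ℕ) : ℤ) + ((x + 2 : ℕ) : ℤ) ^ 2 + ((x + 2 : ℕ) : ℤ) ^ 3 +
    ((x + 2 : ℕ) : ℤ) ^ 4 + ((x + 2 : ℕ) : ℤ) ^ 5 + ((x + 2 : ℕ) : ℤ) ^ 6) (by positivity)
  obtain ⟨a14, h14⟩ := hpos (1 - ((x + 2 : ℕ) : ℤ) + ((x + 2 : ℕ) : ℤ) ^ 2 - ((x + 2 : ℕ) : ℤ) ^ 3 +
    ((x + 2 : ℕ) : ℤ) ^ 4 - ((x + 2 : ℕ) : ℤ) ^ 5 + ((x + 2 : ℕ) : ℤ) ^ 6) (by
      push_cast
      ring_nf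
      positivity)
  obtain ⟨a9, h9⟩ := hpos (1 + ((x + 2 : ℕ) : ℤ) ^ 3 + ((x + 2 : ℕ) : ℤ) ^ 6) (by positivity)
  obtain ⟨a18, h18⟩ := hpos (1 - ((x + 2 : ℕ) : ℤ) ^ 3 + ((x + 2 : ℕ) : ℤ) ^ 6) (by
      push_cast
      ring_nf
      positivity)
  exact ⟨a7, a9, a14, a18, h7, h14, h9, h18⟩

namespace Tori

variable {q a7 a9 a14 a18 : ℕ} (T : Tori q a7 a9 a14 a18)
include T

theorem m7 (hq : 2 ≤ q) : q ^ 7 - 1 = (q - 1) * a7 := by
  zify [Nat.one_le_pow 7 q (by omega), show 1 ≤ q by omega]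
  rw [T.h7]; ring

theorem m14 : q ^ 7 + 1 = (q + 1) * a14 := by
  zify
  rw [T.h14]; ring

theorem m9 (hq : 2 ≤ q) : q ^ 9 - 1 = (q ^ 3 - 1) * a9 := by
  zify [Nat.one_le_pow 9 q (by omega), Nat.one_le_pow 3 q (by omega)]
  rw [T.h9]; ring

theorem m18 : q ^ 9 + 1 = (q ^ 3 + 1) * a18 := by
  zify
  rw [T.h18]; ring

theorem dvd14 (hq : 2 ≤ q) : a7 * a14 ∣ q ^ 14 - 1 := by
  refine ⟨(q - 1) * (q + 1), ?_⟩
  zify [Nat.one_le_pow 14 q (by omega), show 1 ≤ q by omega]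
  rw [T.h7, T.h14]; ring

theorem dvd18 (hq : 2 ≤ q) : a9 * a18 ∣ q ^ 18 - 1 := by
  refine ⟨(q ^ 3 - 1) * (q ^ 3 + 1), ?_⟩
  zify [Nat.one_le_pow 18 q (by omega), Nat.one_le_pow 3 q (by omega)]
  rw [T.h9, T.h18]; ring

theorem odd7 : ¬ 2 ∣ a7 := by
  intro h
  have h1 : ((2 : ℕ) : ℤ) ∣ (a7 : ℤ) := Int.natCast_dvd_natCast.2 h
  rw [T.h7, ← ZMod.intCast_zmod_eq_zero_iff_dvd] at h1
  push_cast at h1
  generalize (q : ZMod 2) = x at h1
  revert h1; revert x; decide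

theorem odd9 : ¬ 2 ∣ a9 := by
  intro h
  have h1 : ((2 : ℕ) : ℤ) ∣ (a9 : ℤ) := Int.natCast_dvd_natCast.2 h
  rw [T.h9, ← ZMod.intCast_zmod_eq_zero_iff_dvd] at h1
  push_cast at h1
  generalize (q : ZMod 2) = x at h1
  revert h1; revert x; decide

theorem odd14 : ¬ 2 ∣ a14 := by
  intro h
  have h1 : ((2 : ℕ) : ℤ) ∣ (a14 : ℤ) := Int.natCast_dvd_natCast.2 h
  rw [T.h14, ← ZMod.intCast_zmod_eq_zero_iff_dvd] at h1
  push_cast at h1
  generalize (q : ZMod 2) = x at h1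
  revert h1; revert x; decide

theorem odd18 : ¬ 2 ∣ a18 := by
  intro h
  have h1 : ((2 : ℕ) : ℤ) ∣ (a18 : ℤ) := Int.natCast_dvd_natCast.2 h
  rw [T.h18, ← ZMod.intCast_zmod_eq_zero_iff_dvd] at h1
  push_cast at h1
  generalize (q : ZMod 2) = x at h1
  revert h1; revert x; decide

theorem sq7 : ¬ 7 ^ 2 ∣ a7 := by
  intro h
  have h1 : ((7 ^ 2 : ℕ) : ℤ) ∣ (a7 : ℤ) := Int.natCast_dvd_natCast.2 h
  rw [T.h7, ← ZMod.intCast_zmod_eq_zero_iff_dvd] at h1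
  push_cast at h1
  generalize (q : ZMod (7 ^ 2)) = x at h1
  revert h1; revert x; decide +kernel

theorem sq14 : ¬ 7 ^ 2 ∣ a14 := by
  intro h
  have h1 : ((7 ^ 2 : ℕ) : ℤ) ∣ (a14 : ℤ) := Int.natCast_dvd_natCast.2 h
  rw [T.h14, ← ZMod.intCast_zmod_eq_zero_iff_dvd] at h1
  push_cast at h1
  generalize (q : ZMod (7 ^ 2)) = x at h1
  revert h1; revert x; decide +kernel

theorem sq9 : ¬ 3 ^ 2 ∣ a9 := by
  intro h
  have h1 : ((3 ^ 2 : ℕ) : ℤ) ∣ (a9 : ℤ) := Int.natCast_dvd_natCast.2 h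
  rw [T.h9, ← ZMod.intCast_zmod_eq_zero_iff_dvd] at h1
  push_cast at h1
  generalize (q : ZMod (3 ^ 2)) = x at h1
  revert h1; revert x; decide +kernel

theorem sq18 : ¬ 3 ^ 2 ∣ a18 := by
  intro h
  have h1 : ((3 ^ 2 : ℕ) : ℤ) ∣ (a18 : ℤ) := Int.natCast_dvd_natCast.2 h
  rw [T.h18, ← ZMod.intCast_zmod_eq_zero_iff_dvd] at h1
  push_cast at h1
  generalize (q : ZMod (3 ^ 2)) = x at h1
  revert h1; revert x; decide +kernel

theorem seven7 (hq : 2 ≤ q) (h : 7 ∣ a7) : 7 ∣ q - 1 := by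
  have h1 : ((7 : ℕ) : ℤ) ∣ (a7 : ℤ) := Int.natCast_dvd_natCast.2 h
  rw [T.h7, ← ZMod.intCast_zmod_eq_zero_iff_dvd] at h1
  rw [← ZMod.natCast_eq_zero_iff, Nat.cast_sub (by omega)]
  push_cast at h1 ⊢
  generalize (q : ZMod 7) = x at h1
  revert h1; revert x; decide

theorem seven14 (h : 7 ∣ a14) : 7 ∣ q + 1 := by
  have h1 : ((7 : ℕ) : ℤ) ∣ (a14 : ℤ) := Int.natCast_dvd_natCast.2 h
  rw [T.h14, ← ZMod.intCast_zmod_eq_zero_iff_dvd] at h1
  rw [← ZMod.natCast_eq_zero_iff]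
  push_cast at h1 ⊢
  generalize (q : ZMod 7) = x at h1
  revert h1; revert x; decide

/-- `q = 1` modulo `s` -/
theorem mod_one {s : ℕ} (hs : s.Prime) (hs2 : s ≠ 2) (hq : 2 ≤ q) (h : s ∣ q - 1) :
    ¬ s ∣ q ^ 7 + 1 ∧ ¬ s ∣ a18 * (q + 1) := by
  have := Fact.mk hs
  have hz : (q : ZMod s) = 1 := by
    have h1 := (ZMod.natCast_eq_zero_iff (q - 1) s).2 h
    rw [Nat.cast_sub (by omega), Nat.cast_one, sub_eq_zero] at h1
    exact h1
  have h2 : (2 : ZMod s) ≠ 0 := by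
    intro h2
    have h3 : ((2 : ℕ) : ZMod s) = 0 := by exact_mod_cast h2
    rw [ZMod.natCast_eq_zero_iff] at h3
    exact hs2 ((Nat.prime_dvd_prime_iff_eq hs Nat.prime_two).1 h3)
  constructor
  · intro h3
    have h4 := (ZMod.natCast_eq_zero_iff (q ^ 7 + 1) s).2 h3
    push_cast at h4
    rw [hz] at h4
    exact h2 (by rw [← h4]; norm_num)
  · intro h3
    have h4 := (ZMod.natCast_eq_zero_iff (a18 * (q + 1)) s).2 h3
    have h5 := congrArg (fun z : ℤ => (z : ZMod s)) T.h18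
    push_cast at h4 h5
    rw [h5, hz] at h4
    exact h2 (by rw [← h4]; norm_num)

/-- `q = -1` modulo `s` -/
theorem mod_two {s : ℕ} (hs : s.Prime) (hs2 : s ≠ 2) (hq : 2 ≤ q) (h : s ∣ q + 1) :
    ¬ s ∣ q ^ 7 - 1 ∧ ¬ s ∣ a9 * (q - 1) := by
  have := Fact.mk hs
  have hz : (q : ZMod s) = -1 := by
    have h1 := (ZMod.natCast_eq_zero_iff (q + 1) s).2 h
    push_cast at h1
    exact eq_neg_of_add_eq_zero_left h1
  have h2 : (2 : ZMod s) ≠ 0 := by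
    intro h2
    have h3 : ((2 : ℕ) : ZMod s) = 0 := by exact_mod_cast h2
    rw [ZMod.natCast_eq_zero_iff] at h3
    exact hs2 ((Nat.prime_dvd_prime_iff_eq hs Nat.prime_two).1 h3)
  constructor
  · intro h3
    have h4 := (ZMod.natCast_eq_zero_iff (q ^ 7 - 1) s).2 h3
    rw [Nat.cast_sub (Nat.one_le_pow 7 q (by omega))] at h4
    push_cast at h4
    rw [hz] at h4
    apply h2
    linear_combination -h4
  · intro h3
    have h4 := (ZMod.natCast_eq_zero_iff (a9 * (q - 1)) s).2 h3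
    have h5 := congrArg (fun z : ℤ => (z : ZMod s)) T.h9
    rw [Nat.cast_mul, Nat.cast_sub (by omega)] at h4
    push_cast at h4 h5
    rw [h5, hz] at h4
    apply h2
    linear_combination -h4

theorem pos : 0 < a7 ∧ 0 < a9 ∧ 0 < a14 ∧ 0 < a18 := by
  refine ⟨Nat.pos_of_ne_zero ?_, Nat.pos_of_ne_zero ?_, Nat.pos_of_ne_zero ?_, Nat.pos_of_ne_zero ?_⟩
  · rintro rfl; exact T.odd7 (dvd_zero _)
  · rintro rfl; exact T.odd9 (dvd_zero _)
  · rintro rfl; exact T.odd14 (dvd_zero _)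
  · rintro rfl; exact T.odd18 (dvd_zero _)

/-- `e = 1` -/
theorem bound_one (hq : 2 ≤ q) : 21 * (81 * (q - 1) ^ 7) < a14 * a18 := by
  zify [show 1 ≤ q by omega]
  rw [T.h14, T.h18]
  obtain ⟨x, rfl⟩ := Nat.exists_eq_add_of_le' hq
  push_cast
  have h : (0 : ℤ) ≤ x := by positivity
  rw [← sub_pos]
  ring_nf
  positivity

/-- `e = 2`, `5 ≤ s` -/
theorem bound_two (hq : 4 ≤ q) : 21 * (7 * (q + 1) ^ 7) < a7 * a9 := by
  zify
  rw [T.h7, T.h9]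
  obtain ⟨x, rfl⟩ := Nat.exists_eq_add_of_le' hq
  push_cast
  have h : (0 : ℤ) ≤ x := by positivity
  rw [← sub_pos]
  ring_nf
  positivity

/-- `e = 2`, `s = 3` -/
theorem bound_two' {b : ℕ} (hb : q + 1 = 2 * b) (hb3 : 3 ≤ b) : 21 * (81 * b ^ 7) < a7 * a9 := by
  zify
  rw [T.h7, T.h9]
  obtain ⟨x, rfl⟩ := Nat.exists_eq_add_of_le' hb3
  have hq : q = 2 * x + 5 := by omega
  subst hq
  push_cast
  have h : (0 : ℤ) ≤ x := by positivity
  rw [← sub_pos]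
  ring_nf
  positivity

/-- `3 ≤ e` -/
theorem bound_three (hq : 2 ≤ q) : 441 * (7 * (q + 1) ^ 7) < (a7 * a14) * (a9 * a18) := by
  zify
  rw [T.h7, T.h9, T.h14, T.h18]
  obtain ⟨x, rfl⟩ := Nat.exists_eq_add_of_le' hq
  push_cast
  have h : (0 : ℤ) ≤ x := by positivity
  rw [← sub_pos]
  ring_nf
  positivity

end Tori

end Arith

section Main

variable {F : Type v} [Field F] [Fintype F] {q : ℕ} {a7 a9 a14 a18 : ℕ}

theorem zdvd {a b : ℕ} {z : ℤ} (h : a ∣ b) (hz : (b : ℤ) = z) : (a : ℤ) ∣ z := by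
  rw [← hz]; exact Int.natCast_dvd_natCast.2 h

theorem isoE7_7 (hq : Fintype.card F = q) (hq2 : 2 ≤ q) (T : Tori q a7 a9 a14 a18) {t : ℕ}
    (ht : t.Prime) (h : t ∣ a7) (h7 : t ≠ 7) :
    Iso ↥(Cfsg.Lie.chevE7.group F) t (q ^ 7 - 1) :=
  Iso.of_cycCard ht (H129.CycCard.card_E7_7 hq (m := q ^ 7 - 1)
    (by rw [Nat.cast_sub (Nat.one_le_pow 7 q (by omega))]; push_cast; ring) ht (zdvd h T.h7) h7)

theorem isoE7_14 (hq : Fintype.card F = q) (T : Tori q a7 a9 a14 a18) {t : ℕ}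
    (ht : t.Prime) (h : t ∣ a14) (h7 : t ≠ 7) :
    Iso ↥(Cfsg.Lie.chevE7.group F) t (q ^ 7 + 1) :=
  Iso.of_cycCard ht (H129.CycCard.card_E7_14 hq (m := q ^ 7 + 1) (by push_cast; ring) ht
    (zdvd h T.h14) h7)

theorem isoE7_9 (hq : Fintype.card F = q) (hq2 : 2 ≤ q) (T : Tori q a7 a9 a14 a18) {t : ℕ}
    (ht : t.Prime) (h : t ∣ a9) (h3 : t ≠ 3) :
    Iso ↥(Cfsg.Lie.chevE7.group F) t (a9 * (q - 1)) :=
  Iso.of_cycCard ht (H129.CycCard.card_E7_9 hq (m := a9 * (q - 1))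
    (by rw [Nat.cast_mul, Nat.cast_sub (by omega), T.h9]; push_cast; ring) ht (zdvd h T.h9) h3)

theorem isoE7_18 (hq : Fintype.card F = q) (T : Tori q a7 a9 a14 a18) {t : ℕ}
    (ht : t.Prime) (h : t ∣ a18) (h3 : t ≠ 3) :
    Iso ↥(Cfsg.Lie.chevE7.group F) t (a18 * (q + 1)) :=
  Iso.of_cycCard ht (H129.CycCard.card_E7_18 hq (m := a18 * (q + 1))
    (by rw [Nat.cast_mul, T.h18]; push_cast; ring) ht (zdvd h T.h18) h3)

/-- The row `E₇(q)`. -/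
theorem noKW_e7 {G : Type u} [Group G] [Finite G] [IsSimpleGroup G]
    (e : G ≃* ↥(Cfsg.Lie.chevE7.group F)) : NoKW G := by
  intro H hHs hc ht hK _
  obtain ⟨q, hq⟩ : ∃ q, Fintype.card F = q := ⟨_, rfl⟩
  have hq2 : 2 ≤ q := by rw [← hq]; exact Fintype.one_lt_card
  obtain ⟨r, hch⟩ := CharP.exists F
  have hr : r.Prime := CharP.char_is_prime F r
  obtain ⟨s, hs, hsH, hsr, hs5⟩ := Cfsg.Agent.H622.KW.exists_prime (L := H) hc hr
  have hsq : ¬ s ∣ q := hq ▸ not_dvd_card (F := F) hr hs hsr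
  have hs2 : s ≠ 2 := by omega
  obtain ⟨a7, a9, a14, a18, T⟩ := exists_tori hq2
  obtain ⟨p7, p9, p14, p18⟩ := T.pos
  -- the order
  have hcard := S1064.result (F := F) hq
  rw [← Nat.card_congr e.toEquiv] at hcard
  have hcard' : Nat.gcd 2 (q - 1) * Nat.card G = q ^ 63 * ∏ d ∈ d7, (q ^ d - 1) := by
    rw [hcard, prod_d7']; ring
  have hprod : (q ^ 14 - 1) * (q ^ 18 - 1) ∣ ∏ d ∈ d7, (q ^ d - 1) := by
    rw [prod_d7']
    exact ⟨(q ^ 2 - 1) * (q ^ 6 - 1) * (q ^ 8 - 1) * (q ^ 10 - 1) * (q ^ 12 - 1), by ring⟩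
  have hdvd : ∀ N : ℕ, ¬ 2 ∣ N → N ∣ (q ^ 14 - 1) * (q ^ 18 - 1) → N ∣ Nat.card G := by
    intro N hN hd
    have h1 : N ∣ Nat.gcd 2 (q - 1) * Nat.card G := by
      rw [hcard']
      exact (hd.trans hprod).mul_left _
    refine Nat.Coprime.dvd_of_dvd_mul_left ?_ h1
    exact Nat.Coprime.coprime_dvd_right (Nat.gcd_dvd_left 2 (q - 1))
      ((Nat.Prime.coprime_iff_not_dvd Nat.prime_two).2 hN).symm
  have htp : s ^ (Nat.card G).factorization s = tp s (∏ d ∈ d7, (q ^ d - 1)) := by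
    have h0 : ∏ d ∈ d7, (q ^ d - 1) ≠ 0 := Finset.prod_ne_zero_iff.2 fun d hd =>
      (pow_sub_one_pos hq2 (d7_pos d hd)).ne'
    have hg0 : Nat.gcd 2 (q - 1) ≠ 0 := (Nat.gcd_pos_of_pos_left _ (by norm_num)).ne'
    have hg : ¬ s ∣ Nat.gcd 2 (q - 1) := fun h => by
      have := Nat.le_of_dvd (by norm_num) (h.trans (Nat.gcd_dvd_left 2 (q - 1)))
      omega
    have h1 : tp s (Nat.gcd 2 (q - 1) * Nat.card G) = tp s (q ^ 63 * ∏ d ∈ d7, (q ^ d - 1)) := by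
      rw [hcard']
    rw [tp_mul s hg0 Nat.card_pos.ne', tp_mul s (pow_ne_zero _ (by omega)) h0,
      tp_eq_one hg, tp_eq_one (fun h => hsq (hs.dvd_of_dvd_pow h)), one_mul, one_mul] at h1
    exact h1
  -- the isolated tori
  have i7 : ∀ t, t.Prime → t ∣ a7 ∧ t ≠ 7 → Iso G t (q ^ 7 - 1) := fun t htp h =>
    (isoE7_7 hq hq2 T htp h.1 h.2).of_mulEquiv e.symm
  have i14 : ∀ t, t.Prime → t ∣ a14 ∧ t ≠ 7 → Iso G t (q ^ 7 + 1) := fun t htp h =>
    (isoE7_14 hq T htp h.1 h.2).of_mulEquiv e.symm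
  have i9 : ∀ t, t.Prime → t ∣ a9 ∧ t ≠ 3 → Iso G t (a9 * (q - 1)) := fun t htp h =>
    (isoE7_9 hq hq2 T htp h.1 h.2).of_mulEquiv e.symm
  have i18 : ∀ t, t.Prime → t ∣ a18 ∧ t ≠ 3 → Iso G t (a18 * (q + 1)) := fun t htp h =>
    (isoE7_18 hq T htp h.1 h.2).of_mulEquiv e.symm
  obtain ⟨n7, d7', l7, t7⟩ := exists_part (by norm_num : (7 : ℕ).Prime) p7.ne' T.sq7
  obtain ⟨n14, d14', l14, t14⟩ := exists_part (by norm_num : (7 : ℕ).Prime) p14.ne' T.sq14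
  obtain ⟨n9, d9', l9, t9⟩ := exists_part Nat.prime_three p9.ne' T.sq9
  obtain ⟨n18, d18', l18, t18⟩ := exists_part Nat.prime_three p18.ne' T.sq18
  by_cases h1 : s ∣ q - 1
  · -- `e = 1`
    have hN := hdvd (n14 * n18)
      (fun h => by
        rcases (Nat.Prime.dvd_mul Nat.prime_two).1 h with h | h
        · exact T.odd14 (h.trans d14')
        · exact T.odd18 (h.trans d18'))
      (Nat.mul_dvd_mul (((Dvd.intro_left _ rfl : n14 ∣ a7 * n14).trans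
        (Nat.mul_dvd_mul_left a7 d14')).trans (T.dvd14 hq2))
        (((Dvd.intro_left _ rfl : n18 ∣ a9 * n18).trans
        (Nat.mul_dvd_mul_left a9 d18')).trans (T.dvd18 hq2)))
    obtain ⟨c1, c2⟩ := T.mod_one hs hs2 hq2 h1
    have hlt := lt_sylow hK ht hs hsH hN (fun t htp htN => by
      rcases (Nat.Prime.dvd_mul htp).1 htN with h | h
      · exact ⟨_, i14 t htp (t14 t htp h), c1⟩
      · exact ⟨_, i18 t htp (t18 t htp h), c2⟩)
    rw [htp] at hlt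
    have hb := T.bound_one hq2
    have hub := tp7_one hs hs2 hq2 h1
    have hl : a14 * a18 ≤ 21 * (n14 * n18) :=
      (Nat.mul_le_mul l14 l18).trans (le_of_eq (by ring))
    omega
  by_cases h2 : s ∣ q + 1
  · -- `e = 2`
    have hN := hdvd (n7 * n9)
      (fun h => by
        rcases (Nat.Prime.dvd_mul Nat.prime_two).1 h with h | h
        · exact T.odd7 (h.trans d7')
        · exact T.odd9 (h.trans d9'))
      (Nat.mul_dvd_mul (((Dvd.intro _ rfl : n7 ∣ n7 * a14).trans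
        (Nat.mul_dvd_mul_right d7' a14)).trans (T.dvd14 hq2))
        (((Dvd.intro _ rfl : n9 ∣ n9 * a18).trans
        (Nat.mul_dvd_mul_right d9' a18)).trans (T.dvd18 hq2)))
    obtain ⟨c1, c2⟩ := T.mod_two hs hs2 hq2 h2
    have hlt := lt_sylow hK ht hs hsH hN (fun t htp htN => by
      rcases (Nat.Prime.dvd_mul htp).1 htN with h | h
      · exact ⟨_, i7 t htp (t7 t htp h), c1⟩
      · exact ⟨_, i9 t htp (t9 t htp h), c2⟩)
    rw [htp] at hlt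
    have hl : a7 * a9 ≤ 21 * (n7 * n9) :=
      (Nat.mul_le_mul l7 l9).trans (le_of_eq (by ring))
    rcases hs5 with hs5 | ⟨hs3, hr5⟩
    · have hq4 : 4 ≤ q := by
        have := Nat.le_of_dvd (by omega) h2
        omega
      have hb := T.bound_two hq4
      have hub := tp7_two (B := q + 1) (W := 7) hs hs2 hq2 h2
        (Nat.le_of_dvd (by omega) (tp_dvd _ _)) (by omega) (tp_weyl7' hs hs5)
      omega
    · -- `s = 3`, `q` odd
      subst hs3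
      have hqodd : q % 2 = 1 := by
        have h3 := not_dvd_card (F := F) hr Nat.prime_two (by omega)
        rw [hq] at h3
        omega
      obtain ⟨b, hb⟩ : ∃ b, q + 1 = 2 * b := ⟨(q + 1) / 2, by omega⟩
      have hr4 : r ∣ q := by
        have := Fact.mk hr
        obtain ⟨n, -, hn⟩ := FiniteField.card F r
        rw [← hq, hn]
        exact dvd_pow_self r n.2.ne'
      have hrq := Nat.le_of_dvd (by omega) hr4
      have hb3 : 3 ≤ b := by omega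
      have hbd := T.bound_two' hb hb3
      have h4 : tp 3 (q + 1) ≤ b := by
        have h5 : tp 3 (q + 1) ∣ 2 * b := hb ▸ tp_dvd 3 (q + 1)
        have h6 : (tp 3 (q + 1)).Coprime 2 :=
          Nat.Coprime.pow_left _ (by norm_num)
        exact Nat.le_of_dvd (by omega) (h6.dvd_of_dvd_mul_left h5)
      have hub := tp7_two (B := b) (W := 81) hs hs2 hq2 h2 h4 (by omega) (tp_weyl7 hs hs2)
      omega
  · -- `3 ≤ e`
    have hs5' : 5 ≤ s := by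
      rcases hs5 with h | ⟨h, -⟩
      · exact h
      · subst h; omega
    have hN := hdvd ((n7 * n14) * (n9 * n18))
      (fun h => by
        rcases (Nat.Prime.dvd_mul Nat.prime_two).1 h with h | h
        · rcases (Nat.Prime.dvd_mul Nat.prime_two).1 h with h | h
          · exact T.odd7 (h.trans d7')
          · exact T.odd14 (h.trans d14')
        · rcases (Nat.Prime.dvd_mul Nat.prime_two).1 h with h | h
          · exact T.odd9 (h.trans d9')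
          · exact T.odd18 (h.trans d18'))
      (Nat.mul_dvd_mul ((Nat.mul_dvd_mul d7' d14').trans (T.dvd14 hq2))
        ((Nat.mul_dvd_mul d9' d18').trans (T.dvd18 hq2)))
    have c7 : ¬ s ∣ q ^ 7 - 1 := by
      intro h
      rw [T.m7 hq2] at h
      rcases (Nat.Prime.dvd_mul hs).1 h with h | h
      · exact h1 h
      · by_cases hs7 : s = 7
        · subst hs7; exact h1 (T.seven7 hq2 h)
        · exact (i7 s hs ⟨h, hs7⟩).not_dvd hs hK ht hsH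
    have c14 : ¬ s ∣ q ^ 7 + 1 := by
      intro h
      rw [T.m14] at h
      rcases (Nat.Prime.dvd_mul hs).1 h with h | h
      · exact h2 h
      · by_cases hs7 : s = 7
        · subst hs7; exact h2 (T.seven14 h)
        · exact (i14 s hs ⟨h, hs7⟩).not_dvd hs hK ht hsH
    have c9 : ¬ s ∣ a9 * (q - 1) := by
      intro h
      rcases (Nat.Prime.dvd_mul hs).1 h with h | h
      · exact (i9 s hs ⟨h, by omega⟩).not_dvd hs hK ht hsH
      · exact h1 h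
    have c18 : ¬ s ∣ a18 * (q + 1) := by
      intro h
      rcases (Nat.Prime.dvd_mul hs).1 h with h | h
      · exact (i18 s hs ⟨h, by omega⟩).not_dvd hs hK ht hsH
      · exact h2 h
    have hlt := lt_sylow hK ht hs hsH hN (fun t htp htN => by
      rcases (Nat.Prime.dvd_mul htp).1 htN with h | h
      · rcases (Nat.Prime.dvd_mul htp).1 h with h | h
        · exact ⟨_, i7 t htp (t7 t htp h), c7⟩
        · exact ⟨_, i14 t htp (t14 t htp h), c14⟩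
      · rcases (Nat.Prime.dvd_mul htp).1 h with h | h
        · exact ⟨_, i9 t htp (t9 t htp h), c9⟩
        · exact ⟨_, i18 t htp (t18 t htp h), c18⟩)
    rw [htp] at hlt
    have hb := T.bound_three hq2
    have hub := tp7_all hs hs5' hq2 hsq
    have hl : (a7 * a14) * (a9 * a18) ≤ 441 * ((n7 * n14) * (n9 * n18)) :=
      (Nat.mul_le_mul (Nat.mul_le_mul l7 l14) (Nat.mul_le_mul l9 l18)).trans
        (le_of_eq (by ring))
    omega

theorem noKW_isoE7 {G : Type u} [Group G] [Finite G] [IsSimpleGroup G]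
    (h : Cfsg.Lie.IsoE7 G) : NoKW G := by
  obtain ⟨F, _, _, ⟨e⟩⟩ := h
  exact noKW_e7 e

end Main

end Cfsg.Agent.H232.KW
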